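import Cfsg.Agent.H653.HNE.Pairs

/-!
# The permutation character of `HN` on the class of `W0` at 2-elements (helper653)

`B2 g` is the number of conjugates of `W0` commuting with `g`: 74064375, 51975, 8311, 71, 75, 151, 5, 3 on the classes
1, 2A, 2B, 4A, 4B, 4C, 8A, 8B.
-/

set_option autoImplicit false
set_option maxRecDepth 100000

namespace Cfsg.Agent.H653.HNE

open Subgroup
open Cfsg.Agent.HN.XWords Cfsg.Agent.HN.XStruct Cfsg.Agent.KFacts.HN
open Cfsg.Agent.KFacts.HN.Classes (card_HN)

section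

variable {G : Type*} [Group G] [Finite G]

/-- commuting pairs -/
theorem card_pairs (a b : G) :
    Nat.card {p : G × G // IsConj a p.1 ∧ IsConj b p.2 ∧ Commute p.2 p.1} =
      Nat.card {g : G // IsConj a g} * Nat.card {t : G // IsConj b t ∧ Commute t a} := by
  classical
  have hf : ∀ g : {g : G // IsConj a g}, Nat.card {t : G // IsConj b t ∧ Commute t g} =
      Nat.card {t : G // IsConj b t ∧ Commute t a} := by
    rintro ⟨g, hg⟩
    obtain ⟨c, rfl⟩ := isConj_iff.1 hg
    exact card_comm_conj b a c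
  have e : {p : G × G // IsConj a p.1 ∧ IsConj b p.2 ∧ Commute p.2 p.1} ≃
      Σ g : {g : G // IsConj a g}, {t : G // IsConj b t ∧ Commute t g} :=
    { toFun := fun p => ⟨⟨p.1.1, p.2.1⟩, ⟨p.1.2, p.2.2⟩⟩
      invFun := fun p => ⟨(p.1.1, p.2.1), p.1.2, p.2.2⟩
      left_inv := fun _ => rfl
      right_inv := fun _ => rfl }
  have := Fintype.ofFinite {g : G // IsConj a g}
  rw [Nat.card_congr e, Nat.card_sigma, Fintype.sum_congr _ _ hf, Finset.sum_const, Finset.card_univ,
    ← Nat.card_eq_fintype_card, smul_eq_mul]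

/-- **double counting** -/
theorem double (a b : G) :
    Nat.card {t : G // IsConj b t ∧ Commute t a} * Nat.card (centralizer ({b} : Set G)) =
      Nat.card (centralizer ({a} : Set G)) * Nat.card {g : G // IsConj a g ∧ Commute g b} := by
  have h1 := card_pairs a b
  have h2 := card_pairs b a
  have h3 : Nat.card {p : G × G // IsConj a p.1 ∧ IsConj b p.2 ∧ Commute p.2 p.1} =
      Nat.card {p : G × G // IsConj b p.1 ∧ IsConj a p.2 ∧ Commute p.2 p.1} :=
    Nat.card_congr
      { toFun := fun p => ⟨(p.1.2, p.1.1), p.2.2.1, p.2.1, p.2.2.2.symm⟩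
        invFun := fun p => ⟨(p.1.2, p.1.1), p.2.2.1, p.2.1, p.2.2.2.symm⟩
        left_inv := fun _ => rfl
        right_inv := fun _ => rfl }
  rw [h1, h2] at h3
  have ha := card_conj a
  have hb := card_conj b
  have hG : 0 < Nat.card G := Nat.card_pos
  set na := Nat.card {g : G // IsConj a g}
  set nb := Nat.card {g : G // IsConj b g}
  set ca := Nat.card (centralizer ({a} : Set G))
  set cb := Nat.card (centralizer ({b} : Set G))
  set x := Nat.card {t : G // IsConj b t ∧ Commute t a}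
  set y := Nat.card {g : G // IsConj a g ∧ Commute g b}
  have h4 : Nat.card G * (x * cb) = Nat.card G * (ca * y) := by
    calc Nat.card G * (x * cb) = na * ca * (x * cb) := by rw [ha]
      _ = ca * (na * x) * cb := by ring
      _ = ca * (nb * y) * cb := by rw [h3]
      _ = ca * y * (nb * cb) := by ring
      _ = Nat.card G * (ca * y) := by rw [hb]; ring
  exact Nat.eq_of_mul_eq_mul_left hG h4

end

/-- **the induced character formula** -/
theorem B2_formula (a : Cfsg.Spor.HN) : B2 a * 3686400 =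
    Nat.card (centralizer ({a} : Set Cfsg.Spor.HN)) * Nat.card {x : PP // IsConj a (x : Cfsg.Spor.HN)} := by
  have h := double a W0
  have h1 : Nat.card {x : PP // IsConj a (x : Cfsg.Spor.HN)} =
      Nat.card {g : Cfsg.Spor.HN // IsConj a g ∧ Commute g W0} :=
    Nat.card_congr
      { toFun := fun x => ⟨x.1, x.2, mem_PP.1 x.1.2⟩
        invFun := fun g => ⟨⟨g.1, mem_PP.2 g.2.2⟩, g.2.1⟩
        left_inv := fun _ => rfl
        right_inv := fun _ => rfl }
  have h2 : Nat.card (centralizer ({W0} : Set Cfsg.Spor.HN)) = 3686400 := card_PP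
  rw [h2] at h
  rw [h1]
  exact h

theorem B2_one : B2 1 = 74064375 := by
  have h := card_conj W0
  have h2 : Nat.card (centralizer ({W0} : Set Cfsg.Spor.HN)) = 3686400 := card_PP
  rw [h2, card_HN] at h
  have h3 : Nat.card {t : Cfsg.Spor.HN // IsConj W0 t} = 74064375 :=
    Nat.eq_of_mul_eq_mul_right (by norm_num) (h.trans (by norm_num : (273030912000000 : ℕ) = 74064375 * 3686400))
  have h1 : B2 1 = Nat.card {t : Cfsg.Spor.HN // IsConj W0 t} :=
    Nat.card_congr
      { toFun := fun x => ⟨x.1, x.2.1⟩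
        invFun := fun g => ⟨g.1, g.2, Commute.one_right _⟩
        left_inv := fun _ => rfl
        right_inv := fun _ => rfl }
  rw [h1, h3]

theorem canc {a b c : ℕ} (h : a * 3686400 = c) (h1 : c = b * 3686400) : a = b :=
  Nat.eq_of_mul_eq_mul_right (by norm_num) (h.trans h1)

theorem B2_2A' : B2 tA = 51975 := by
  have h := B2_formula tA
  have h1 : Nat.card (centralizer ({tA} : Set Cfsg.Spor.HN)) = 177408000 :=
    Cfsg.Agent.KFacts.HN.Classes.card_centralizer_τ
  rw [n2A, h1] at h
  exact canc h (by norm_num)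

theorem B2_2B' : B2 W0 = 8311 := by
  have h := B2_formula W0
  have h1 : Nat.card (centralizer ({W0} : Set Cfsg.Spor.HN)) = 3686400 := card_PP
  rw [n2B, h1] at h
  exact canc h (by norm_num)

theorem B2_8B' : B2 R8B = 3 := by
  have h := B2_formula R8B
  have h1 : Nat.card {x : PP // IsConj R8B (x : Cfsg.Spor.HN)} = 172800 := by
    rw [← nFourB]
    exact Nat.card_congr (Equiv.subtypeEquivRight fun x => ⟨conj_four_8B, conj_eight⟩)
  rw [h1, card_8B] at h
  exact canc h (by norm_num)

theorem card_4A_PP : Nat.card {x : PP // IsConj R4A (x : Cfsg.Spor.HN)} = 17040 := by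
  have h := B2_formula R4A
  rw [B2_4A, card_4A] at h
  have h1 : 15360 * Nat.card {x : PP // IsConj R4A (x : Cfsg.Spor.HN)} = 15360 * 17040 := h.symm.trans (by norm_num)
  exact Nat.eq_of_mul_eq_mul_left (by norm_num) h1

theorem card_4C_PP : Nat.card {x : PP // IsConj R4C (x : Cfsg.Spor.HN)} = 144960 := by
  classical
  have h0 := card_4A_PP
  have h1 := nSqB
  have h2 : Nat.card {x : PP // IsConj W0 ((x : Cfsg.Spor.HN) ^ 2)} =
      Nat.card ({x : PP // IsConj R4A (x : Cfsg.Spor.HN)} ⊕ {x : PP // IsConj R4C (x : Cfsg.Spor.HN)}) := by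
    have hd : Disjoint (fun x : PP => IsConj R4A (x : Cfsg.Spor.HN)) (fun x : PP => IsConj R4C (x : Cfsg.Spor.HN)) :=
      disjoint_iff_inf_le.2 fun x h => not_isConj_4A_4C (IsConj.trans h.1 (IsConj.symm h.2))
    rw [← Nat.card_congr (subtypeOrEquiv _ _ hd)]
    exact Nat.card_congr (Equiv.subtypeEquivRight fun x => ⟨conj_four, fun h => h.elim conj_sq_4A conj_sq_4C⟩)
  rw [Nat.card_sum, h0, h1] at h2
  have h3 : 17040 + Nat.card {x : PP // IsConj R4C (x : Cfsg.Spor.HN)} = 17040 + 144960 := h2.symm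
  exact Nat.add_left_cancel h3

theorem B2_4C' : B2 R4C = 151 := by
  have h := B2_formula R4C
  rw [card_4C_PP, card_4C] at h
  exact canc h (by norm_num)

/-- class 4B -/
theorem B2_4B' {a : Cfsg.Spor.HN} (hc : Nat.card (centralizer ({a} : Set Cfsg.Spor.HN)) = 5760)
    (h4 : ∀ g : Cfsg.Spor.HN, IsConj a g ↔ IsConj tA (g ^ 2)) : B2 a = 75 := by
  have h := B2_formula a
  have h1 : Nat.card {x : PP // IsConj a (x : Cfsg.Spor.HN)} = 48000 := by
    rw [← nSqA]
    exact Nat.card_congr (Equiv.subtypeEquivRight fun x => h4 x)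
  rw [h1, hc] at h
  exact canc h (by norm_num)

/-- class 8A -/
theorem B2_8A' {a : Cfsg.Spor.HN} (hc : Nat.card (centralizer ({a} : Set Cfsg.Spor.HN)) = 80)
    (h8 : ∀ g : Cfsg.Spor.HN, IsConj a g ↔ IsConj tA (g ^ 4)) : B2 a = 5 := by
  have h := B2_formula a
  have h1 : Nat.card {x : PP // IsConj a (x : Cfsg.Spor.HN)} = 230400 := by
    rw [← nFourA]
    exact Nat.card_congr (Equiv.subtypeEquivRight fun x => h8 x)
  rw [h1, hc] at h
  exact canc h (by norm_num)

/-! ### Final form -/

theorem B2_2A {g : Cfsg.Spor.HN} (h : IsConj tA g) : B2 g = 51975 := by rw [← B2_conj h, B2_2A']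
theorem B2_2B {g : Cfsg.Spor.HN} (h : IsConj W0 g) : B2 g = 8311 := by rw [← B2_conj h, B2_2B']
theorem B2_4Ag {g : Cfsg.Spor.HN} (h : IsConj R4A g) : B2 g = 71 := by rw [← B2_conj h, B2_4A]
theorem B2_4C {g : Cfsg.Spor.HN} (h : IsConj R4C g) : B2 g = 151 := by rw [← B2_conj h, B2_4C']
theorem B2_8B {g : Cfsg.Spor.HN} (h : IsConj R8B g) : B2 g = 3 := by rw [← B2_conj h, B2_8B']

end Cfsg.Agent.H653.HNE
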